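import Cfsg.Agent.Lib.CZ.Schur
import Cfsg.Agent.Lib.FT.GW.Dih

/-!
Doubly transitive groups of even degree with a regular cyclic subgroup and Z-groups as point stabilizers.
-/

set_option autoImplicit false
set_option linter.unusedSectionVars false
set_option linter.unusedVariables false

namespace Cfsg.Lib.CZ
open Subgroup Cfsg.Lib Cfsg.Lib.FT MulAction

variable {G : Type*} [Group G] [Finite G]

theorem exists_gen {H : Subgroup G} (h : IsCyclic H) : ∃ c, zpowers c = H := by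
  obtain ⟨c, hc⟩ := (Subgroup.isCyclic_iff_exists_zpowers_eq_top H).1 h
  exact ⟨c, hc⟩

variable {Ω : Type*} [Finite Ω] [MulAction G Ω]

/-- the hypothesis -/
structure TZ (Ω : Type*) [MulAction G Ω] (a : G) : Prop where
  faith : ∀ g : G, (∀ x : Ω, g • x = x) → g = 1
  two : ∀ x y u v : Ω, x ≠ y → u ≠ v → ∃ g : G, g • x = u ∧ g • y = v
  zg : ∀ x : Ω, IsZGroup (stabilizer G x)
  tr : ∀ x y : Ω, ∃ α ∈ zpowers a, α • x = y
  ev : Even (Nat.card Ω)
  big : 2 < Nat.card Ω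

theorem exists_third (h : 2 < Nat.card Ω) (x y : Ω) : ∃ u, u ≠ x ∧ u ≠ y := by
  classical
  have := Fintype.ofFinite Ω
  rw [Nat.card_eq_fintype_card] at h
  obtain ⟨u, -, hu⟩ := Finset.exists_mem_notMem_of_card_lt_card (s := {x, y}) (t := Finset.univ)
    (Finset.card_le_two.trans_lt h)
  exact ⟨u, by simpa using hu⟩

theorem cj {g t : G} {x : Ω} (h : t • x = x) : (g * t * g⁻¹) • g • x = g • x := by
  rw [mul_smul, inv_smul_smul, mul_smul, h]

theorem zc {a α β : G} (h1 : α ∈ zpowers a) (h2 : β ∈ zpowers a) : α * β = β * α :=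
  comm_of_isMulCommutative inferInstance h1 h2

theorem inv_zpow' {z κ : G} (zz : z * z = 1) (h : z * κ * z = κ⁻¹) (m : ℤ) : z * κ ^ m * z = (κ ^ m)⁻¹ := by
  have := conj_zpow (i := m) (a := z) (b := κ)
  rwa [inv_eq_of_mul_eq_one_right zz, h, inv_zpow, eq_comm] at this

theorem fix_shift {z κ : G} (zz : z * z = 1) (h : z * κ * z = κ⁻¹) {l : ℤ} (m : ℤ) {p : Ω} (e : (κ ^ l * z) • p = p) :
    (κ ^ (l + 2 * m) * z) • κ ^ m • p = κ ^ m • p := by
  have : z * κ ^ m = (κ ^ m)⁻¹ * z := by rw [← inv_zpow' zz h, mul_assoc, zz, mul_one]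
  rw [← mul_smul, mul_assoc, this, show κ ^ (l + 2 * m) * ((κ ^ m)⁻¹ * z) = κ ^ m * (κ ^ l * z) by group, mul_smul, e]

theorem swap_inv {z w : G} (zz : z * z = 1) (ww : w * w = 1) {x : Ω} (e : w • x = z • x) :
    (w * z) • x = x ∧ (w * z) • z • x = z • x ∧ z * (w * z) * z = (w * z)⁻¹ :=
  ⟨by rw [mul_smul, ← e, ← mul_smul, ww, one_smul], by rw [mul_smul, ← mul_smul z, zz, one_smul, e], by
    rw [mul_assoc, mul_assoc, zz, mul_one, mul_inv_rev, inv_eq_of_mul_eq_one_right zz, inv_eq_of_mul_eq_one_right ww]⟩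

namespace TZ

variable {a : G} (h : TZ Ω a)
include h

theorem reg {α : G} (h1 : α ∈ zpowers a) {x : Ω} (e : α • x = x) : α = 1 := h.faith α fun y => by
  obtain ⟨β, h2, rfl⟩ := h.tr x y
  rw [← mul_smul, zc h1 h2, mul_smul, e]

theorem even_fix {t : G} (ht : t * t = 1) : Even (Nat.card {x : Ω // t • x = x}) :=
  Nat.even_iff.2 ((card_modEq_invol (f := fun x : Ω => t • x) fun x => by
    rw [← mul_smul, ht, one_smul]).symm.trans (show _ ≡ 0 [MOD 2] from Nat.even_iff.1 h.ev))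

theorem fix2 {t : G} (ht : t * t = 1) {x : Ω} (e : t • x = x) : ∃ y, y ≠ x ∧ t • y = y := by
  by_contra! h1
  exact Nat.not_even_one ((Nat.card_eq_one_iff_exists (α := {x : Ω // t • x = x})).2 ⟨⟨x, e⟩, fun y =>
    Subtype.ext (by_contra fun e1 => h1 y e1 y.2)⟩ ▸ h.even_fix ht)

theorem cycD (x : Ω) : IsCyclic (⁅stabilizer G x, stabilizer G x⁆ : Subgroup G) := by
  have := h.zg x
  have := IsZGroup.isCyclic_commutator (stabilizer G x)
  rw [← map_subtype_commutator]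
  exact isCyclic_of_surjective _ ((stabilizer G x).subtype.subgroupMap_surjective _)

theorem semi {x y : Ω} {g : G} (hg : g ∈ ⁅stabilizer G x, stabilizer G x⁆) (hy : y ≠ x) (e : g • y = y) : g = 1 :=
  h.faith g fun u => by
    by_cases hu : u = x
    · exact hu ▸ commutator_le_self _ hg
    obtain ⟨b, h1, rfl⟩ := h.two x y x u hy.symm (Ne.symm hu)
    have := (mem_normalizer_iff''.1 (normalizer_le_normalizer_of_isCyclic (h.cycD x) (zpowers_le.2 hg)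
      (le_normalizer_commutator_left _ _ h1)) g).1 (mem_zpowers g)
    have : (b⁻¹ * g * b) • y = y := zpowers_le.2 (show g ∈ stabilizer G y from e) this
    rwa [mul_smul, mul_smul, inv_smul_eq_iff] at this

theorem cyc {x y : Ω} (hy : y ≠ x) : IsCyclic ↥(stabilizer G x ⊓ stabilizer G y) := by
  have := h.zg x
  refine isCyclic_of_injective (Abelianization.of.comp (inclusion inf_le_left))
    ((injective_iff_map_eq_one _).2 fun g e => Subtype.ext (h.semi ?_ hy g.2.2))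
  exact map_subtype_commutator (stabilizer G x) ▸ mem_map_of_mem _ ((QuotientGroup.eq_one_iff _).1 e)

theorem uniq {x y : Ω} (hy : y ≠ x) {s t : G} (hs : orderOf s = 2) (ht : orderOf t = 2) (h1 : s • x = x)
    (h2 : s • y = y) (h3 : t • x = x) (h4 : t • y = y) : s = t :=
  ci_invol_eq (h.cyc hy) ⟨h1, h2⟩ ⟨h3, h4⟩ hs ht

theorem mul_mem_D {x : Ω} {s t : G} (hs : orderOf s = 2) (ht : orderOf t = 2) (h1 : s • x = x) (h2 : t • x = x) :
    s * t ∈ ⁅stabilizer G x, stabilizer G x⁆ := by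
  obtain ⟨y, hy, e1⟩ := h.fix2 (ci_mul_self hs) h1
  obtain ⟨v, hv, e2⟩ := h.fix2 (ci_mul_self ht) h2
  obtain ⟨g, h3, rfl⟩ := h.two x v x y hv.symm hy.symm
  have := commutator_mem_commutator (show g ∈ stabilizer G x from h3) (show t ∈ stabilizer G x from h2)
  rwa [commutatorElement_def, inv_eq_of_mul_eq_one_right (ci_mul_self ht),
    ← h.uniq hy hs (ci_orderOf_conj ht g) h1 e1 (h3 ▸ cj h2) (cj e2)] at this

theorem comm_eq {x : Ω} {s t : G} (hs : orderOf s = 2) (ht : orderOf t = 2) (h1 : s • x = x) (h2 : t • x = x)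
    (e : s * t = t * s) : s = t := by
  obtain ⟨y, hy, e1⟩ := h.fix2 (t := s * t) (x := x) (by
    rw [mul_assoc, ← mul_assoc t, ← e, mul_assoc, ci_mul_self ht, mul_one, ci_mul_self hs]) (by rw [mul_smul, h2, h1])
  rw [mul_eq_one_iff_eq_inv.1 (h.semi (h.mul_mem_D hs ht h1 h2) hy e1), inv_eq_of_mul_eq_one_right (ci_mul_self ht)]

theorem exists_z : ∃ z ∈ zpowers a, orderOf z = 2 := by
  have : Nonempty Ω := (Nat.card_pos_iff.1 (two_pos.trans h.big)).1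
  obtain ⟨x⟩ := this
  refine exists_mem_orderOf_eq_of_dvd (Nat.card_eq_of_bijective (fun α : zpowers a => α.1 • x) ⟨fun α β e => ?_, fun y => ?_⟩
    ▸ even_iff_two_dvd.1 h.ev)
  · exact Subtype.ext (inv_mul_eq_one.1 (h.reg (mul_mem (inv_mem α.2) β.2) (x := x)
      (by rw [mul_smul, inv_smul_eq_iff]; exact e.symm)))
  · obtain ⟨α, h1, e⟩ := h.tr x y
    exact ⟨⟨α, h1⟩, e⟩

theorem exists_tau {x y : Ω} (hy : y ≠ x) : ∃ t : G, orderOf t = 2 ∧ t • x = x ∧ t • y = y := by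
  classical
  have := Fintype.ofFinite Ω
  obtain ⟨t, h1, h2⟩ : ∃ t ∈ stabilizer G x, orderOf t = 2 := exists_mem_orderOf_eq_of_dvd (by_contra fun e => by
    let s := Equiv.Perm.sign.comp (toPermHom G Ω)
    have h1 : stabilizer G x ≤ s.ker := fun b hb => by
      have : s b ^ Nat.card (stabilizer G x) = 1 := by
        rw [← map_pow, show b ^ _ = 1 from congrArg Subtype.val (pow_card_eq_one' (x := (⟨b, hb⟩ : stabilizer G x))),
          map_one]
      rwa [Int.units_pow_eq_pow_mod_two, Nat.two_dvd_ne_zero.1 e, pow_one] at this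
    have h2 : ∀ u : Ω, a • u ≠ u := fun u e => by
      obtain ⟨α, h3, rfl⟩ := h.tr x y
      exact hy (by rw [zpowers_eq_bot.2 (h.reg (mem_zpowers a) e), mem_bot] at h3; rw [h3, one_smul])
    have h3 : s a = -1 := by
      have : (toPermHom G Ω a).IsCycle := ⟨x, h2 x, fun u _ => by
        obtain ⟨_, ⟨k, rfl⟩, e⟩ := h.tr x u
        exact ⟨k, by rw [← map_zpow]; exact e⟩⟩
      rw [MonoidHom.comp_apply, this.sign, Finset.eq_univ_of_forall fun u => Equiv.Perm.mem_support.2 (h2 u),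
        Finset.card_univ, ← Nat.card_eq_fintype_card, h.ev.neg_one_pow]
    obtain ⟨u, u1, u2⟩ := exists_third h.big x y
    obtain ⟨b, h4, h5⟩ := h.two x y x u hy.symm u1.symm
    obtain ⟨g, h6, h7⟩ := h.two y u x (a • x) u2.symm (h2 x).symm
    have h8 : g * b * g⁻¹ ∈ s.ker := Normal.conj_mem inferInstance _ (h1 h4) g
    have h9 := h1 (show (g * b * g⁻¹)⁻¹ * a ∈ stabilizer G x by
      rw [mem_stabilizer_iff, mul_smul, inv_smul_eq_iff, ← h7, ← h6, mul_smul, inv_smul_smul, mul_smul, h5])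
    rw [s.ker.mul_mem_cancel_left (inv_mem h8), MonoidHom.mem_ker, h3] at h9
    exact absurd h9 (by decide))
  obtain ⟨v, hv, e⟩ := h.fix2 (ci_mul_self h2) h1
  obtain ⟨g, h3, rfl⟩ := h.two x v x y hv.symm hy.symm
  exact ⟨_, ci_orderOf_conj h2 g, h3 ▸ cj h1, cj e⟩

theorem exists_swap {x y : Ω} (hy : y ≠ x) : ∃ w : G, w * w = 1 ∧ w • x = y ∧ ∃ p : Ω, w • p = p := by
  obtain ⟨t, h1, h2, -⟩ := h.exists_tau hy
  obtain ⟨u, hu⟩ := not_forall.1 (mt (h.faith t) (ne_one_of_orderOf_two h1))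
  obtain ⟨g, rfl, rfl⟩ := h.two u (t • u) x y (Ne.symm hu) hy.symm
  exact ⟨g * t * g⁻¹, ci_mul_self (ci_orderOf_conj h1 g), by rw [mul_smul, inv_smul_smul, mul_smul], _, cj h2⟩

theorem hc {x y : Ω} (hy : y ≠ x) {k l : G} (h1 : k • x = x) (h2 : k • y = y) (h3 : l • x = x) (h4 : l • y = y) :
    k * l = l * k :=
  have := h.cyc hy
  comm_of_isMulCommutative (inferInstance : IsMulCommutative ↥(stabilizer G x ⊓ stabilizer G y)) ⟨h1, h2⟩ ⟨h3, h4⟩

/-- the involutions interchanging `x` and `z • x` -/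
theorem par {x : Ω} {z : G} (zz : z * z = 1) (zf : ∀ p : Ω, z • p ≠ p) : ∃ κ : G, κ • x = x ∧ κ • z • x = z • x ∧
    z * κ * z = κ⁻¹ ∧ (∀ k : G, k • x = x → k • z • x = z • x → z * k * z = k⁻¹ → k ∈ zpowers κ) ∧
      ∀ l : ℤ, (∃ p : Ω, (κ ^ l * z) • p = p) ↔ Odd l := by
  let K : Subgroup G := ofMul {k | k • x = x ∧ k • z • x = z • x ∧ z * k * z = k⁻¹} (by simpa using zz)
    fun k hk l hl => ⟨by rw [mul_smul, hl.1, hk.1], by rw [mul_smul, hl.2.1, hk.2.1], by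
      rw [h.hc (zf x) hk.1 hk.2.1 hl.1 hl.2.1, mul_inv_rev, ← hk.2.2, ← hl.2.2, h.hc (zf x) hl.1 hl.2.1 hk.1 hk.2.1,
        mul_assoc (z * k), ← mul_assoc z (z * l), ← mul_assoc z z, zz]; group⟩
  obtain ⟨κ, e⟩ := exists_gen (FT.isCyclic_of_le (h.cyc (zf x)) (show K ≤ _ from fun k hk => ⟨hk.1, hk.2.1⟩))
  obtain ⟨h1, h2, h3⟩ : κ ∈ K := e ▸ mem_zpowers κ
  have k1 : ∀ l : ℤ, (∃ p : Ω, (κ ^ l * z) • p = p) → Odd l := fun l ⟨p, e1⟩ => Int.not_even_iff_odd.1 fun ⟨m, e2⟩ =>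
    zf (κ ^ (-m) • p) (by simpa [e2, two_mul] using fix_shift zz h3 (-m) e1)
  refine ⟨κ, h1, h2, h3, fun k a b c => e.ge ⟨a, b, c⟩, fun l => ⟨k1 l, fun ⟨m, e1⟩ => ?_⟩⟩
  obtain ⟨w, w2, w1, p, e2⟩ := h.exists_swap (zf x)
  obtain ⟨i, e3⟩ := e.ge (show w * z ∈ K from swap_inv zz w2 w1)
  have e4 : (κ ^ i * z) • p = p := by rw [show κ ^ i = _ from e3, mul_assoc, zz, mul_one, e2]
  obtain ⟨j, rfl⟩ := k1 i ⟨p, e4⟩
  exact ⟨_, (show l = 2 * j + 1 + 2 * (m - j) by omega) ▸ fix_shift zz h3 (m - j) e4⟩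

end TZ

/-- the conclusion: the group is sharply triply transitive -/
structure Sh (G Ω : Type*) [Group G] [MulAction G Ω] : Prop where
  c1 : ∀ (g : G) (x y : Ω), y ≠ x → g • x = y → g • y = x → g * g = 1
  c2 : ∀ x y u v : Ω, y ≠ x → u ≠ x → u ≠ y → v ≠ x → v ≠ y → ∃ g : G, g • x = x ∧ g • y = y ∧ g • u = v

namespace TZ

variable {a : G} (h : TZ Ω a) {z : G} (hz : z ∈ zpowers a) (z2 : orderOf z = 2)
include h

theorem sharp {x y u : Ω} (s : ∀ v : Ω, v ≠ x → v ≠ y → ∃ g : G, g • x = x ∧ g • y = y ∧ g • u = v) (hy : y ≠ x) 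
    {g : G} (e1 : g • x = x) (e2 : g • y = y) (e3 : g • u = u) : g = 1 := h.faith g fun v => by
  by_cases h3 : v = x
  · rwa [h3]
  by_cases h4 : v = y
  · rwa [h4]
  obtain ⟨k, h5, h6, rfl⟩ := s v h3 h4
  rw [← mul_smul, h.hc hy e1 e2 h5 h6, mul_smul, e3]

include hz z2

theorem zf (p : Ω) : z • p ≠ p := fun e => ne_one_of_orderOf_two z2 (h.reg hz e)

theorem c4 (s : Sh G Ω) {x : Ω} {c α : G} (h1 : c • x = x) (h2 : c • z • x = z • x) (c2 : orderOf c = 2)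
    (hα : α ∈ zpowers a) : α * c * (α * c) = 1 := by
  have h3 : ∀ k : ℤ, a ^ k • x = x → a ^ k = 1 := fun k => h.reg (zpow_mem (mem_zpowers a) k)
  have h4 : a * a ≠ 1 := fun e => by
    obtain ⟨u, u1, u2⟩ := exists_third h.big x (a • x)
    obtain ⟨β, h4, rfl⟩ := h.tr x u
    rcases (GW.mem_zpowers_two e).1 h4 with rfl | rfl
    exacts [u1 (one_smul _ _), u2 rfl]
  have h5 : a • x ≠ x := fun e => h4 (by rw [h.reg (mem_zpowers a) e, one_mul])
  have h6 : a⁻¹ • x ≠ x := fun e => h5 (inv_smul_eq_iff.1 e).symm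
  have h7 : a • x ≠ a⁻¹ • x := fun e => h4 (h.reg (mul_mem (mem_zpowers a) (mem_zpowers a))
    (by rw [mul_smul, e, smul_inv_smul]))
  obtain ⟨g, e1, e2⟩ := h.two x (a • x) x (a⁻¹ • x) h5.symm h6.symm
  obtain ⟨k, e3, e4, e5⟩ := s.c2 x (a⁻¹ • x) (g • a⁻¹ • x) (a • x) h6 (fun e => h6 (smul_left_cancel g (e.trans e1.symm)))
    (fun e => h7 (smul_left_cancel g (e.trans e2.symm)).symm) h5 h7
  have e6 : (k * g) • x = x := by rw [mul_smul, e1, e3]
  have e7 : (k * g) • a • x = a⁻¹ • x := by rw [mul_smul, e2, e4]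
  rw [← mul_smul] at e5
  generalize k * g = t at e5 e6 e7
  have t2 := s.c1 t _ _ h7 e5 e7
  have h8 := s.c1 (t * a) _ _ h6 (by rw [mul_smul, e7]) (by rw [mul_smul, smul_inv_smul, e6])
  have h9 : ∀ β ∈ zpowers a, t * β * t = β⁻¹ := by
    rintro _ ⟨l, rfl⟩
    have : t * a * t⁻¹ = a⁻¹ := by rw [inv_eq_of_mul_eq_one_right t2, eq_inv_iff_mul_eq_one, mul_assoc, h8]
    rw [← inv_zpow, ← this, conj_zpow, inv_eq_of_mul_eq_one_right t2]
  rw [h.uniq (h.zf hz z2 x) c2 (ci_orderOf (fun e => h7 (by rw [← e7, e, one_smul])) t2) h1 h2 e6 (by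
    rw [← e6, ← mul_smul, ← mul_smul, h9 z hz, e6, inv_eq_of_mul_eq_one_right (ci_mul_self z2)]), mul_assoc,
    ← mul_assoc t, h9 α hα, mul_inv_cancel]

theorem c5 (s : Sh G Ω) {x : Ω} {k : G} (h1 : k • x = x) (h2 : k • z • x = z • x)
    (h3 : ∀ g : G, g • x = x → g • z • x = z • x → g ∈ zpowers k) {j : ℤ} (hj : Odd j) :
    ∃ p : Ω, (k ^ j * z) • p = p := by
  have zz := ci_mul_self z2
  obtain ⟨κ, e1, e2, -, e3, e4⟩ := h.par (x := x) zz (h.zf hz z2)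
  obtain ⟨i, rfl⟩ := e3 k h1 h2 (by
    rw [eq_inv_iff_mul_eq_one, mul_assoc]
    exact s.c1 (z * k) x _ (h.zf hz z2 x) (by rw [mul_smul, h1]) (by rw [mul_smul, h2, ← mul_smul, zz, one_smul]))
  obtain ⟨l, e5⟩ := h3 κ e1 e2
  rw [← zpow_mul, e4]
  refine Odd.mul (Int.odd_mul.1 ((e4 (i * l)).1 ?_)).1 hj
  rw [zpow_mul, show (κ ^ i) ^ l = κ from e5]
  simpa using (e4 1).2 odd_one

omit hz z2 in
theorem base {t : G} (t2 : orderOf t = 2) {x₀ : Ω} (e0 : t • x₀ = x₀) (hf : Nat.card {x : Ω // t • x = x} ≤ 2) :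
    Sh G Ω := by
  have f2 : ∀ s : G, orderOf s = 2 → ∀ x y u : Ω, y ≠ x → s • x = x → s • y = y → s • u = u → u = x ∨ u = y :=
    fun s s2 x y u hy e1 e2 e3 => by
      obtain ⟨y₀, h1, e4⟩ := h.fix2 (ci_mul_self t2) e0
      obtain ⟨g, rfl, rfl⟩ := h.two x₀ y₀ x y h1.symm hy.symm
      obtain rfl := h.uniq hy s2 (ci_orderOf_conj t2 g) e1 e2 (cj e0) (cj e4)
      by_contra! h2
      have : Function.Injective (![⟨x₀, e0⟩, ⟨y₀, e4⟩, ⟨g⁻¹ • u, by
          rwa [mul_smul, mul_smul, smul_eq_iff_eq_inv_smul] at e3⟩] : Fin 3 → {x : Ω // t • x = x}) := by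
        intro i j
        fin_cases i <;> fin_cases j <;> simp [h1, h1.symm, eq_inv_smul_iff, inv_smul_eq_iff, h2.1, h2.2, h2.1.symm, h2.2.symm]
      simpa using (Nat.card_le_card_of_injective _ this).trans hf
  have f3 : ∀ x y u : Ω, x ≠ u → y ≠ u → ∃ w : G, orderOf w = 2 ∧ w • u = u ∧ w • x = y := fun x y u hx hy => by
    choose τ h1 h2 h3 using fun v : {v // v ≠ u} => h.exists_tau v.2
    obtain ⟨v, e⟩ := Finite.injective_iff_surjective.1 (show Function.Injective fun v : {v // v ≠ u} =>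
      (⟨τ v • x, fun e => hx (smul_left_cancel _ (e.trans (h2 v).symm))⟩ : {v // v ≠ u}) from fun v v' e => by
        have := h.semi (h.mul_mem_D (h1 v) (h1 v') (h2 v) (h2 v')) hx (by
          rw [mul_smul, ← show τ v • x = τ v' • x from congrArg Subtype.val e, ← mul_smul, ci_mul_self (h1 v), one_smul])
        rw [mul_eq_one_iff_eq_inv, inv_eq_of_mul_eq_one_right (ci_mul_self (h1 v'))] at this
        exact Subtype.ext ((f2 _ (h1 v') _ _ _ v'.2 (h2 v') (h3 v') (this ▸ h3 v)).resolve_left v.2)) ⟨y, hy⟩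
    exact ⟨τ v, h1 v, h2 v, congrArg Subtype.val e⟩
  obtain ⟨z, hz, z2⟩ := h.exists_z
  have zz := ci_mul_self z2
  have f4 : ∀ x y : Ω, y ≠ x → ∃ w : G, w * w = 1 ∧ w • x = y ∧ ∀ u v : Ω, u ≠ x → u ≠ y → v ≠ x → v ≠ y →
      ∃ g : G, g • x = x ∧ g • y = y ∧ w * g * w = g⁻¹ ∧ g • u = v := fun x y hy => by
    obtain ⟨g, e1, e2⟩ := h.two x (z • x) x y (h.zf hz z2 x).symm hy.symm
    obtain ⟨w, ww, rfl, wf⟩ : ∃ w : G, w * w = 1 ∧ w • x = y ∧ ∀ p : Ω, w • p ≠ p :=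
      ⟨g * z * g⁻¹, by rw [conj_mul, zz]; simp, by rw [← e2, ← e1, mul_smul, inv_smul_smul, mul_smul, e1], fun p e =>
        h.zf hz z2 (g⁻¹ • p) (by rwa [mul_smul, mul_smul, smul_eq_iff_eq_inv_smul] at e)⟩
    obtain ⟨κ, k1, k2, k3, k4, k5⟩ := h.par (x := x) ww wf
    have k6 : ∀ m : ℤ, κ ^ m • x = x ∧ κ ^ m • w • x = w • x := fun m =>
      zpow_mem (show κ ∈ stabilizer G x ⊓ stabilizer G (w • x) from ⟨k1, k2⟩) m
    have key : ∀ u, u ≠ x → u ≠ w • x → ∃ i : ℤ, (κ ^ i * w) • u = u := fun u h1 h2 => by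
      obtain ⟨s, s2, e3, e4⟩ := f3 x (w • x) u h1.symm h2.symm
      obtain ⟨h3, h4, h5⟩ := swap_inv ww (ci_mul_self s2) e4
      obtain ⟨i, e5⟩ := k4 _ h3 h4 h5
      exact ⟨i, by rw [show κ ^ i = _ from e5, mul_assoc, ww, mul_one, e3]⟩
    refine ⟨w, ww, rfl, fun u v h1 h2 h3 h4 => ?_⟩
    obtain ⟨i, e3⟩ := key u h1 h2
    obtain ⟨j, e4⟩ := key v h3 h4
    obtain ⟨i, rfl⟩ := (k5 i).1 ⟨u, e3⟩
    obtain ⟨j, rfl⟩ := (k5 j).1 ⟨v, e4⟩
    have e5 := fix_shift ww k3 (j - i) e3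
    rw [show 2 * i + 1 + 2 * (j - i) = 2 * j + 1 by ring] at e5
    obtain ⟨τ, t2, t3, t4⟩ := h.exists_tau hy
    have t5 : w * τ * w = τ⁻¹ := by
      have := h.uniq hy (ci_orderOf_conj t2 w) t2 (by simpa only [← mul_smul w w, ww, one_smul] using cj (g := w) t4)
        (cj t3) t3 t4
      rw [inv_eq_of_mul_eq_one_right ww] at this
      rwa [inv_eq_of_mul_eq_one_right (ci_mul_self t2)]
    obtain ⟨r, rfl⟩ := mem_zpowers_iff.1 (k4 τ t3 t4 t5)
    rcases f2 (κ ^ (2 * j + 1) * w) (ci_orderOf (fun e => hy (by simpa [mul_smul, (k6 _).2] using congrArg (· • x) e))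
      (by rw [mul_assoc, ← mul_assoc w, inv_zpow' ww k3, mul_inv_cancel])) v (κ ^ r • v) _
      (fun e => (f2 _ t2 x _ v hy t3 t4 e).elim h3 h4) e4 (by
        rw [← mul_smul, mul_assoc, eq_mul_inv_iff_mul_eq.2 t5, inv_eq_of_mul_eq_one_right (ci_mul_self t2),
          inv_eq_of_mul_eq_one_right ww, ← mul_assoc, ← zpow_add, add_comm, zpow_add, mul_assoc, mul_smul, e4]) e5
      with e | e
    · exact ⟨_, (k6 _).1, (k6 _).2, inv_zpow' ww k3 _, e⟩
    · exact ⟨κ ^ (-r + (j - i)), (k6 _).1, (k6 _).2, inv_zpow' ww k3 _, by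
        rw [zpow_add, mul_smul, e, zpow_neg, inv_smul_smul]⟩
  refine ⟨fun g x y hy e1 e2 => ?_, fun x y u v hy h1 h2 h3 h4 => ?_⟩
  · obtain ⟨w, ww, h1, h2⟩ := f4 x y hy
    obtain ⟨u, u1, u2⟩ := exists_third h.big x y
    have h3 : (w * g) • x = x := by rw [mul_smul, e1, ← h1, ← mul_smul, ww, one_smul]
    have h4 : (w * g) • y = y := by rw [mul_smul, e2, h1]
    obtain ⟨k, h5, h6, h7, h8⟩ := h2 u ((w * g) • u) u1 u2 (fun e => u1 (smul_left_cancel _ (e.trans h3.symm)))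
      fun e => u2 (smul_left_cancel _ (e.trans h4.symm))
    obtain rfl := inv_mul_eq_one.1 (h.sharp (g := k⁻¹ * (w * g)) (fun v h9 h10 =>
      let ⟨g, a, b, _, c⟩ := h2 u v u1 u2 h9 h10; ⟨g, a, b, c⟩) hy (by rw [mul_smul, h3, inv_smul_eq_iff, h5])
      (by rw [mul_smul, h4, inv_smul_eq_iff, h6]) (by rw [mul_smul, inv_smul_eq_iff, h8]))
    rwa [← mul_assoc, ww, one_mul, eq_inv_iff_mul_eq_one, mul_assoc, ← mul_assoc w, ww, one_mul] at h7
  · obtain ⟨w, -, -, h5⟩ := f4 x y hy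
    obtain ⟨g, h6, h7, -, h8⟩ := h5 u v h1 h2 h3 h4
    exact ⟨g, h6, h7, h8⟩

end TZ

end Cfsg.Lib.CZ
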