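import Cfsg.Agent.Lib.CI.Basic

/-!
Schur's theorem for primitive groups with a regular cyclic subgroup of even order.
-/

set_option autoImplicit false
set_option linter.unusedSectionVars false

namespace Cfsg.Lib.CZ
open Subgroup Cfsg.Lib Cfsg.Lib.FT

variable {G : Type*} [Group G] [Finite G]

theorem card_modEq_invol {α : Type*} [Finite α] {f : α → α} (hf : ∀ x, f (f x) = x) :
    Nat.card α ≡ Nat.card {x // f x = x} [MOD 2] := by
  classical
  have := Fintype.ofFinite α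
  have := Equiv.Perm.card_fixedPoints_modEq (α := α) (f := f) (p := 2) (n := 1) (funext hf)
  rwa [← Nat.card_eq_fintype_card, ← Nat.card_eq_fintype_card] at this

/-- a multiplicatively closed subset containing `1` -/
def ofMul (s : Set G) (h1 : 1 ∈ s) (h : ∀ x ∈ s, ∀ y ∈ s, x * y ∈ s) : Subgroup G where
  carrier := s
  one_mem' := h1
  mul_mem' := fun ha hb => h _ ha _ hb
  inv_mem' := fun {x} hx => by
    obtain ⟨n, e⟩ := (isOfFinOrder_of_finite x).mem_powers_iff_mem_zpowers.2 (inv_mem (mem_zpowers x))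
    exact e ▸ Submonoid.pow_mem ⟨⟨s, fun ha hb => h _ ha _ hb⟩, h1⟩ hx n

theorem schur {A B : Subgroup G} (hA : IsCyclic A) (hAB : ∀ g : G, ∃ a ∈ A, ∃ b ∈ B, g = a * b) (hd : A ⊓ B = ⊥)
    (hB : IsCoatom B) {z : G} (hz : z ∈ A) (z2 : orderOf z = 2) {g : G} (hg : g ∉ B) :
    ∃ b ∈ B, ∃ b' ∈ B, z = b * g * b' := by
  by_contra hD
  have hc : ∀ x ∈ A, ∀ y ∈ A, x * y = y * x := fun x hx y hy => comm_of_isMulCommutative inferInstance hx hy
  let D : Set G := {x | ∃ b ∈ B, ∃ b' ∈ B, x = b * g * b'}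
  have hD1 : ∀ b ∈ B, ∀ b' ∈ B, ∀ x ∈ D, b * x * b' ∈ D := by
    rintro b hb b' hb' _ ⟨c, h1, c', h2, rfl⟩
    exact ⟨_, mul_mem hb h1, _, mul_mem h2 hb', by group⟩
  have h1 : (1 : G) ∉ D := fun ⟨b, hb, b', hb', e⟩ => hg (by
    rw [← B.mul_mem_cancel_left hb, ← B.mul_mem_cancel_right hb', ← e]; exact one_mem _)
  let c : G → ℕ := fun y => Nat.card {x : A // x.1 ∈ D ∧ x.1⁻¹ * y ∈ D}
  have h2 : ∀ y y', ∀ b ∈ B, ∀ b' ∈ B, y' = b * y * b' → c y ≤ c y' := fun y y' b hb b' hb' e => by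
    choose π hπ ρ hρ e1 using hAB
    refine Nat.card_le_card_of_injective (fun x => ⟨⟨π (b * x), hπ _⟩, ?_, ?_⟩) fun x x' e2 => ?_
    · simpa [← eq_mul_inv_iff_mul_eq.2 (e1 _).symm] using hD1 b hb _ (inv_mem (hρ (b * x))) _ x.2.1
    · change (π (b * x))⁻¹ * y' ∈ D
      rw [e, eq_mul_inv_iff_mul_eq.2 (e1 (b * x)).symm]
      simpa [mul_assoc] using hD1 _ (hρ (b * x)) _ hb' _ x.2.2
    · have e3 : π (b * x) = π (b * x') := congrArg (·.1.1) e2
      have : (x.1 : G)⁻¹ * x'.1 ∈ A ⊓ B := ⟨A.mul_mem (A.inv_mem x.1.2) x'.1.2, by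
        rw [show (x.1 : G)⁻¹ * x'.1 = (b * x)⁻¹ * (b * x') by group, e1 (b * x), e1 (b * x'), e3]
        simpa [mul_assoc] using mul_mem (inv_mem (hρ (b * x))) (hρ (b * x'))⟩
      exact Subtype.ext (Subtype.ext (inv_mul_eq_one.1 (hd.le this)))
  have h3 : ∀ y ∈ A, c y ≡ Nat.card {x : A // x.1 ∈ D ∧ x.1 * x = y} [MOD 2] := fun y hy =>
    (card_modEq_invol (f := fun x : {x : A // x.1 ∈ D ∧ x.1⁻¹ * y ∈ D} =>
      ⟨⟨x.1.1⁻¹ * y, mul_mem (inv_mem x.1.2) hy⟩, x.2.2, by simpa [hc _ (inv_mem hy) _ x.1.2] using x.2.1⟩)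
      fun x => Subtype.ext (Subtype.ext (by simp [hc _ (inv_mem hy) _ x.1.2]))).trans (by
        refine (congrArg (· % 2) (Nat.card_congr ?_) :)
        exact ⟨fun x => ⟨x.1.1, x.1.2.1, (inv_mul_eq_iff_eq_mul.1 (congrArg (·.1.1) x.2)).symm⟩,
          fun x => ⟨⟨x.1, x.2.1, by simpa [← x.2.2] using x.2.1⟩, Subtype.ext (Subtype.ext (by simp [← x.2.2]))⟩,
          fun _ => rfl, fun _ => rfl⟩)
  let X := ofMul {v : G | ∀ b ∈ B, ∃ a ∈ A, ∃ b' ∈ B, b * v = a * a * b'}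
    (fun b hb => ⟨1, one_mem _, b, hb, by simp⟩) fun x hx y hy b hb => by
      obtain ⟨a, ha, b1, h4, e1⟩ := hx b hb
      obtain ⟨a', ha', b2, h5, e2⟩ := hy b1 h4
      refine ⟨a * a', mul_mem ha ha', b2, h5, ?_⟩
      rw [← mul_assoc, e1, mul_assoc, e2, mul_assoc a a' (a * a'), ← mul_assoc a', hc a' ha' a ha]; group
  have h4 : X = B := (hB.le_iff.1 (show B ≤ X from fun b hb b' hb' =>
      ⟨1, one_mem _, _, mul_mem hb' hb, by simp⟩)).resolve_left fun e => by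
    have : Function.Surjective fun a : A => a * a := fun a => by
      obtain ⟨a', ha', b, hb, e1⟩ := e.ge (mem_top (a : G)) 1 (one_mem _)
      have : (a' * a')⁻¹ * a ∈ A ⊓ B := ⟨A.mul_mem (A.inv_mem (mul_mem ha' ha')) a.2, by
        rwa [← one_mul (a : G), e1, inv_mul_cancel_left]⟩
      exact ⟨⟨a', ha'⟩, Subtype.ext (inv_mul_eq_one.1 (hd.le this))⟩
    exact ne_one_of_orderOf_two z2 (congrArg Subtype.val (Finite.injective_iff_surjective.2 this
      (show (⟨z, hz⟩ : A) * ⟨z, hz⟩ = 1 * 1 from Subtype.ext (by simpa using ci_mul_self z2))))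
  have h5 : ∀ x ∈ A, x ∈ D → z * x ∈ D := fun x hx xD => by_contra fun e => by
    have h5 : ∀ u ∈ A, u * u = 1 → u = 1 ∨ u = z := fun u hu e1 =>
      or_iff_not_imp_left.2 fun u1 => ci_invol_eq hA hu hz (ci_orderOf u1 e1) z2
    have h6 := h3 _ (mul_mem hx hx)
    rw [(Nat.card_eq_one_iff_exists (α := {u : A // u.1 ∈ D ∧ u.1 * u = x * x})).2 ⟨⟨⟨x, hx⟩, xD, rfl⟩, fun u =>
      Subtype.ext (Subtype.ext (mul_inv_eq_one.1 ((h5 _ (mul_mem u.1.2 (inv_mem hx)) (by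
        rw [mul_assoc, ← mul_assoc x⁻¹, hc _ (inv_mem hx) _ u.1.2, mul_assoc, ← mul_assoc, u.2.2]; group)).resolve_right
          fun e1 => e (by simpa [← e1] using u.2.1))))⟩] at h6
    have h7 : x * x ∈ A ⊓ B := ⟨mul_mem hx hx, h4.le fun b hb => by
      obtain ⟨y, hy, b', hb', e1⟩ := hAB (b * (x * x))
      have h7 := h3 y hy
      rw [le_antisymm (h2 y _ _ (inv_mem hb) _ hb' (by rw [mul_assoc, ← e1, inv_mul_cancel_left]))
        (h2 _ y _ hb _ (inv_mem hb') (by rw [e1, mul_inv_cancel_right]))] at h7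
      obtain ⟨u⟩ := (Nat.card_pos_iff.1 (Nat.pos_of_ne_zero fun e2 => absurd ((e2 ▸ h7).symm.trans h6) (by decide))).1
      exact ⟨_, u.1.2, b', hb', by rw [u.2.2, e1]⟩⟩
    rcases h5 x hx (hd.le h7) with rfl | rfl
    exacts [h1 xD, hD xD]
  let L := ofMul {u : G | ∀ d ∈ D, u * d ∈ D} (fun d hd => by rwa [one_mul])
    fun x hx y hy d hd => mul_assoc x y d ▸ hx _ (hy d hd)
  refine h1 (inv_mul_cancel g ▸ (hB.2 L (lt_of_le_of_ne (fun b hb d hd => by simpa using hD1 b hb 1 (one_mem _) d hd)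
    fun e => ne_one_of_orderOf_two z2 (hd.le ⟨hz, e.ge fun d dD => ?_⟩))).ge (mem_top g⁻¹) g
      ⟨1, one_mem _, 1, one_mem _, by simp⟩)
  obtain ⟨a, ha, b, hb, rfl⟩ := hAB d
  simpa [mul_assoc] using hD1 1 (one_mem _) b hb _ (h5 a ha (by simpa using hD1 1 (one_mem _) _ (inv_mem hb) _ dD))

end Cfsg.Lib.CZ
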