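import Cfsg.Agent.Lib.CZ.Basic

/-!
The action of the centralizer of an involution on its fixed points.
-/

set_option autoImplicit false
set_option linter.unusedSectionVars false
set_option linter.unusedVariables false

universe u

namespace Cfsg.Lib.CZ
open Subgroup Cfsg.Lib Cfsg.Lib.FT MulAction

section
variable {G : Type*} [Group G] [Finite G] {Ω : Type*} [Finite Ω] [MulAction G Ω]

/-- the action of `C(τ)` on the fixed points of `τ` -/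
@[reducible] def fixAct (Ω : Type*) [MulAction G Ω] (τ : G) : MulAction C1[τ] {u : Ω // τ • u = u} where
  smul c u := ⟨c.1 • u.1, by rw [← mul_smul, ← mem_C1.1 c.2, mul_smul, u.2]⟩
  one_smul _ := Subtype.ext (one_smul _ _)
  mul_smul _ _ _ := Subtype.ext (mul_smul _ _ _)

/-- the permutation group induced by `C(τ)` -/
abbrev FG (Ω : Type*) [MulAction G Ω] (τ : G) := (@toPermHom _ _ _ (fixAct Ω τ)).range

/-- the permutation induced by an element of `C(τ)` -/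
def fr (Ω : Type*) [MulAction G Ω] (τ : G) : C1[τ] →* FG Ω τ := (@toPermHom _ _ _ (fixAct Ω τ)).rangeRestrict

theorem fr_smul {τ : G} (c : C1[τ]) (u : {u : Ω // τ • u = u}) : (fr Ω τ c • u).1 = c.1 • u.1 := rfl

theorem fr_surj (τ : G) : Function.Surjective (fr Ω τ) := MonoidHom.rangeRestrict_surjective _

theorem fr_eq_one {τ : G} (c : C1[τ]) : fr Ω τ c = 1 ↔ c.1 ∈ fixingSubgroup G {u : Ω | τ • u = u} :=
  ⟨fun e => (mem_fixingSubgroup_iff G).2 fun u hu => congrArg (fun g => (g • (⟨u, hu⟩ : {u : Ω // τ • u = u})).1) e,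
    fun e => Subtype.ext (Equiv.ext fun u => Subtype.ext ((mem_fixingSubgroup_iff G).1 e u.1 u.2))⟩

namespace TZ

variable {a : G} (h : TZ Ω a) {z : G} (hz : z ∈ zpowers a) (z2 : orderOf z = 2) {x : Ω} {τ : G} (t2 : orderOf τ = 2)
  (t3 : τ • x = x) (t4 : τ • z • x = z • x)
include h hz z2 t2 t3 t4

theorem zt : z * τ = τ * z := by
  have := h.uniq (h.zf hz z2 x) (ci_orderOf_conj t2 z) t2
    (by simpa only [← mul_smul z z, ci_mul_self z2, one_smul] using cj (g := z) t4) (cj t3) t3 t4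
  rwa [mul_inv_eq_iff_eq_mul] at this

theorem conj_eq {s β : G} (s2 : orderOf s = 2) (sz : z * s = s * z) (hβ : β ∈ zpowers a) (e : s • β • x = β • x) :
    β * τ * β⁻¹ = s :=
  h.uniq (h.zf hz z2 (β • x)) (ci_orderOf_conj t2 β) s2 (cj t3)
    (by simpa only [← mul_smul β z, zc hβ hz, mul_smul z β] using cj (g := β) t4) e
    (by rw [← mul_smul, ← sz, mul_smul, e])

theorem trC {u : Ω} (hu : τ • u = u) : ∃ α ∈ zpowers a ⊓ C1[τ], α • x = u := by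
  obtain ⟨α, h1, rfl⟩ := h.tr x u
  exact ⟨α, ⟨h1, mem_C1.2 (mul_inv_eq_iff_eq_mul.1 (h.conj_eq hz z2 t2 t3 t4 t2 (h.zt hz z2 t2 t3 t4) h1 hu))⟩, rfl⟩

theorem sub (big : 2 < Nat.card {u : Ω // τ • u = u}) {α : C1[τ]} (hα : zpowers α.1 = zpowers a ⊓ C1[τ]) :
    TZ {u : Ω // τ • u = u} (fr Ω τ α) where
  faith g e := Subtype.ext (Equiv.ext e)
  two p q u v h1 h2 := by
    obtain ⟨g, e1, e2⟩ := h.two p.1 q.1 u.1 v.1 (mt Subtype.ext h1) (mt Subtype.ext h2)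
    exact ⟨fr Ω τ ⟨g, mem_C1.2 (mul_inv_eq_iff_eq_mul.1 (h.uniq (mt Subtype.ext h2.symm) (ci_orderOf_conj t2 g) t2
      (e1 ▸ cj p.2) (e2 ▸ cj q.2) u.2 v.2))⟩, Subtype.ext e1, Subtype.ext e2⟩
  zg u := by
    have := h.zg u.1
    have : IsZGroup ((stabilizer G u.1).subgroupOf C1[τ]) := .of_injective
      (f := (C1[τ].subtype.comp (Subgroup.subtype _)).codRestrict (stabilizer G u.1) fun c => c.2)
      fun c d e => Subtype.ext (Subtype.ext (congrArg Subtype.val e :))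
    refine .of_surjective (f := ((fr Ω τ).comp ((stabilizer G u.1).subgroupOf C1[τ]).subtype).codRestrict _
      fun c => Subtype.ext c.2) fun ⟨g, hg⟩ => ?_
    obtain ⟨g, rfl⟩ := fr_surj τ g
    exact ⟨⟨g, congrArg Subtype.val hg⟩, rfl⟩
  tr p q := by
    obtain ⟨β, h1, e1⟩ := h.trC hz z2 t2 t3 t4 p.2
    obtain ⟨γ, h2, e2⟩ := h.trC hz z2 t2 t3 t4 q.2
    obtain ⟨k, e⟩ := hα.ge (mul_mem h2 (inv_mem h1))
    refine ⟨_, zpow_mem (mem_zpowers _) k, Subtype.ext ?_⟩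
    rw [← map_zpow, fr_smul, coe_zpow, show α.1 ^ k = _ from e, ← e1, mul_smul, inv_smul_smul, e2]
  ev := h.even_fix (ci_mul_self t2)
  big := big

theorem step (big : 2 < Nat.card {u : Ω // τ • u = u}) (s : Sh (FG Ω τ) {u : Ω // τ • u = u}) : False := by
  have zz := ci_mul_self z2
  have tt := ci_mul_self t2
  have zf := h.zf hz z2
  have zt := h.zt hz z2 t2 t3 t4
  set K := fixingSubgroup G {u : Ω | τ • u = u}
  have mK : ∀ {g : G} {p : Ω}, g ∈ K → τ • p = p → g • p = p := fun hg hp => (mem_fixingSubgroup_iff G).1 hg _ hp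
  obtain ⟨α, hα⟩ := exists_gen (FT.isCyclic_of_le (inferInstance : IsCyclic (zpowers a)) (inf_le_left (b := C1[τ])))
  have h' := h.sub hz z2 t2 t3 t4 big (α := ⟨α, (hα.le (mem_zpowers α)).2⟩) hα
  have mA : ∀ β (hβ : β ∈ zpowers a ⊓ C1[τ]), fr Ω τ ⟨β, hβ.2⟩ ∈ zpowers (fr Ω τ ⟨α, (hα.le (mem_zpowers α)).2⟩) :=
    fun β hβ => let ⟨k, e⟩ := hα.ge hβ; ⟨k, (map_zpow _ _ _).symm.trans (congrArg _ (Subtype.ext e))⟩
  have hz' := mA z ⟨hz, mem_C1.2 zt⟩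
  have z2' : orderOf (fr Ω τ ⟨z, mem_C1.2 zt⟩) = 2 := ci_orderOf (fun e => zf x (mK ((fr_eq_one _).1 e) t3))
    (by rw [← map_mul, ← map_one (fr Ω τ)]; exact congrArg _ (Subtype.ext zz))
  obtain ⟨η, hη⟩ := exists_gen (h.cyc (zf x))
  have mC : ∀ g ∈ zpowers η, g ∈ C1[τ] := fun g hg => mem_C1.2 (h.hc (zf x) (hη.le hg).1 (hη.le hg).2 t3 t4)
  have T4 : ∀ c ∈ zpowers η, c ∉ K → c * c ∈ K → ∀ β ∈ zpowers a ⊓ C1[τ], β * c * (β * c) ∈ K := fun c hc h1 h2 β hβ =>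
    (fr_eq_one (⟨β, hβ.2⟩ * ⟨c, mC c hc⟩ * (⟨β, hβ.2⟩ * ⟨c, mC c hc⟩))).1 (by
      simp only [map_mul]
      exact h'.c4 hz' z2' s (x := ⟨x, t3⟩) (Subtype.ext (hη.le hc).1) (Subtype.ext (hη.le hc).2)
        (ci_orderOf (mt (fr_eq_one _).1 h1) (by rw [← map_mul]; exact (fr_eq_one _).2 h2)) (mA β hβ))
  have T5 : ∀ j : ℤ, Odd j → ∃ p : Ω, τ • p = p ∧ (η ^ j * z) • p = p := fun j hj => by
    obtain ⟨p, e⟩ := h'.c5 hz' z2' s (x := ⟨x, t3⟩) (k := fr Ω τ ⟨η, mC η (mem_zpowers η)⟩)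
      (Subtype.ext (hη.le (mem_zpowers η)).1) (Subtype.ext (hη.le (mem_zpowers η)).2) (fun g e1 e2 => by
        obtain ⟨g, rfl⟩ := fr_surj τ g
        obtain ⟨k, e⟩ := hη.ge (show g.1 ∈ _ from ⟨congrArg Subtype.val e1, congrArg Subtype.val e2⟩)
        exact ⟨k, (map_zpow _ _ _).symm.trans (congrArg _ (Subtype.ext e))⟩) hj
    rw [← map_zpow, ← map_mul] at e
    exact ⟨p.1, p.2, congrArg Subtype.val e⟩
  obtain ⟨κ, k1, k2, k3, k4, k5⟩ := h.par (x := x) zz zf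
  obtain ⟨l, rfl⟩ := mem_zpowers_iff.1 (hη.ge (show κ ∈ _ from ⟨k1, k2⟩))
  obtain ⟨l, rfl⟩ : Even l := Int.not_odd_iff_even.1 fun e => by
    obtain ⟨p, e1, e2⟩ := T5 l e
    have e3 : (η ^ l * z) • x ≠ x := by rw [mul_smul, k2]; exact zf x
    exact e3 (h.comm_eq (ci_orderOf (fun e => e3 (by rw [e, one_smul])) (by
      rw [mul_assoc, ← mul_assoc z, k3, mul_inv_cancel])) t2 e2 e1 (by
        rw [mul_assoc, zt, ← mul_assoc, mem_C1.1 (mC _ (zpow_mem (mem_zpowers η) l)), mul_assoc]) ▸ t3)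
  have η1 : η • x = x := (hη.le (mem_zpowers η)).1
  have η2 : η • z • x = z • x := (hη.le (mem_zpowers η)).2
  have zη : z * η⁻¹ * z ∈ zpowers η := hη.ge ⟨show (z * η⁻¹ * z) • x = x by
      rw [mul_smul, mul_smul, inv_smul_eq_iff.2 η2.symm, ← mul_smul, zz, one_smul],
    show (z * η⁻¹ * z) • z • x = z • x by
      rw [mul_smul, mul_smul, ← mul_smul z z, zz, one_smul, inv_smul_eq_iff.2 η1.symm]⟩
  obtain ⟨i, e1⟩ := mem_zpowers_iff.1 (k4 (η * (z * η⁻¹ * z)) (hη.le (mul_mem (mem_zpowers η) zη)).1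
    (hη.le (mul_mem (mem_zpowers η) zη)).2 (by
      rw [zc (mem_zpowers η) zη]
      simp only [mul_inv_rev, inv_inv, inv_eq_of_mul_eq_one_right zz, ← mul_assoc, zz, one_mul]))
  obtain ⟨i, rfl⟩ : Even i := Int.not_odd_iff_even.1 fun e => by
    obtain ⟨p, e2⟩ := (k5 i).2 e
    refine zf (η⁻¹ • p) ?_
    rwa [e1, mul_assoc, mul_assoc, zz, mul_one, mul_smul, mul_smul, smul_eq_iff_eq_inv_smul] at e2
  have c0 : η ^ (1 - 2 * (l * i)) * z = z * η ^ (1 - 2 * (l * i)) := by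
    have e2 := inv_zpow' zz k3 i
    have e3 : z * η⁻¹ * z = η⁻¹ * (η ^ (l + l)) ^ (i + i) := by rw [e1, inv_mul_cancel_left]
    have e4 : z * (η⁻¹ * (η ^ (l + l)) ^ i) * z = η⁻¹ * (η ^ (l + l)) ^ i := by
      rw [show z * (η⁻¹ * (η ^ (l + l)) ^ i) * z = z * η⁻¹ * z * (z * (η ^ (l + l)) ^ i * z) by
        simp only [mul_assoc, ← mul_assoc z z, zz, one_mul], e2, e3]; group
    rw [show η ^ (1 - 2 * (l * i)) = (η⁻¹ * (η ^ (l + l)) ^ i)⁻¹ by group]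
    refine Commute.inv_left (show _ * z = z * _ from ?_)
    rw [← e4, mul_assoc, zz, mul_one, e4]
  have o1 : Odd (1 - 2 * (l * i)) := ⟨-(l * i), by ring⟩
  have zτ : z * τ * z = τ⁻¹ := by rw [zt, mul_assoc, zz, mul_one, inv_eq_of_mul_eq_one_right tt]
  obtain ⟨r, hr⟩ := mem_zpowers_iff.1 (k4 τ t3 t4 zτ)
  obtain ⟨p, hp⟩ := (k5 r).2 (Int.not_even_iff_odd.1 fun ⟨r, e⟩ => by
    have e2 := inv_zpow' zz k3 (r * (1 - 2 * (l * i)))
    rw [show (η ^ (l + l)) ^ (r * (1 - 2 * (l * i))) = (η ^ (1 - 2 * (l * i))) ^ ((l + l) * r) by group,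
      ← (show Commute _ z from c0).zpow_left _, mul_assoc, zz, mul_one, eq_inv_iff_mul_eq_one,
      show _ * _ = ((η ^ (l + l)) ^ (r + r)) ^ (1 - 2 * (l * i)) by group, ← e, hr, ← orderOf_dvd_iff_zpow_eq_one, t2] at e2
    exact Int.not_even_iff_odd.2 o1 (even_iff_two_dvd.2 e2))
  rw [hr] at hp
  obtain ⟨β, hβ, rfl⟩ := h.tr x p
  have w2 : orderOf (τ * z) = 2 := ci_orderOf (fun e => zf x (by rw [← t4, ← mul_smul, e, one_smul]))
    (by rw [mul_assoc, ← mul_assoc z, zτ, mul_inv_cancel])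
  have b1 := h.conj_eq hz z2 t2 t3 t4 w2 (by rw [← mul_assoc, zt]) hβ hp
  obtain ⟨c, hc⟩ := exists_gen (FT.isCyclic_of_le (inferInstance : IsCyclic (zpowers η)) (inf_le_left (b := C1[z])))
  obtain ⟨c1, c2⟩ := hc.le (mem_zpowers c)
  have c3 : c ∉ K := fun e => by
    obtain ⟨p, e2, e3⟩ := T5 _ o1
    have := zpowers_le.2 e (hc.ge ⟨zpow_mem (mem_zpowers η) _, mem_C1.2 c0⟩)
    exact zf p (by rw [← mK this (p := z • p) (by rw [← mul_smul, ← zt, mul_smul, e2]), ← mul_smul, e3])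
  have c4 : c * c ∈ K := by
    have := s.c1 (fr Ω τ ⟨c, mC c c1⟩ * fr Ω τ ⟨z, mem_C1.2 zt⟩) ⟨x, t3⟩ ⟨z • x, t4⟩ (fun e => zf x (congrArg Subtype.val e))
      (Subtype.ext (hη.le c1).2) (Subtype.ext (show c • z • z • x = x by
        rw [← mul_smul z, zz, one_smul]; exact (hη.le c1).1))
    simp only [← map_mul] at this
    simpa only [show c * z * (c * z) = c * c by rw [mul_assoc, ← mul_assoc z, ← mem_C1.1 c2, mul_assoc, zz, mul_one]]
      using show c * z * (c * z) ∈ K from (fr_eq_one _).1 this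
  obtain ⟨m, hm⟩ := mem_zpowers_iff.1 (hc.ge ⟨hη.ge ⟨t3, t4⟩, mem_C1.2 zt.symm⟩)
  have ev : ∀ {g : G} {j : ℤ}, Even j → g * g ∈ K → g ^ j ∈ K := fun ⟨j, e⟩ hg => by
    rw [e, ← two_mul, zpow_mul, zpow_two]; exact zpow_mem hg j
  have od : ∀ {j : ℤ}, Odd j → c ^ j ∉ K := fun hj e => c3 (by
    simpa [← zpow_add] using mul_mem e (ev (odd_one.sub_odd hj) c4))
  have hm2 : Even m := Int.not_odd_iff_even.1 fun e => od e (hm ▸ (mem_fixingSubgroup_iff G).2 fun _ hu => hu)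
  let S : Subgroup G := ofMul {g | ∃ γ ∈ zpowers a ⊓ C1[τ], ∀ u : Ω, τ • u = u → g • u = γ • u}
    ⟨1, one_mem _, fun _ _ => rfl⟩ fun g ⟨γ, h1, h2⟩ g' ⟨γ', h3, h4⟩ => ⟨γ * γ', mul_mem h1 h3, fun u hu => by
      rw [mul_smul, h4 u hu, h2 _ (by rw [← mul_smul, ← mem_C1.1 h3.2, mul_smul, hu]), mul_smul]⟩
  have key : ∀ γ ∈ zpowers a, γ * τ * γ⁻¹ = τ * z → ∃ δ ∈ zpowers a ⊓ C1[τ], ∃ j : ℤ, Even j ∧ γ * c * γ⁻¹ = δ * c ^ j :=
    fun γ hγ e => by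
      have cτ := mem_C1.1 (mC c c1)
      have γz := zc hγ hz
      have e2 : γ * (τ * z) * γ⁻¹ = τ := by
        rw [← conj_mul, e, γz, mul_inv_cancel_right, mul_assoc, zz, mul_one]
      have cz : Commute c z := mem_C1.1 c2
      have e3 : γ * c * γ⁻¹ ∈ C1[τ] ⊓ C1[z] := ⟨mem_C1.2 (e2 ▸ (Commute.mul_right cτ cz).conj γ :),
        mem_C1.2 (by simpa only [γz, mul_inv_cancel_right] using (cz.conj γ).eq)⟩
      obtain ⟨δ, h1, h2⟩ := h.trC hz z2 t2 t3 t4 (u := (γ * c * γ⁻¹) • x) (by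
        rw [← mul_smul, ← mem_C1.1 e3.1, mul_smul, t3])
      have e4 : δ⁻¹ * (γ * c * γ⁻¹) ∈ C1[z] := mul_mem (inv_mem (mem_C1.2 (zc h1.1 hz))) e3.2
      have e5 : (δ⁻¹ * (γ * c * γ⁻¹)) • x = x := by rw [mul_smul, ← h2, inv_smul_smul]
      obtain ⟨j, hj⟩ := mem_zpowers_iff.1 (hc.ge ⟨hη.ge ⟨e5, show _ • z • x = z • x by
        rw [← mul_smul, mem_C1.1 e4, mul_smul, e5]⟩, e4⟩)
      rw [eq_inv_mul_iff_mul_eq] at hj
      refine ⟨δ, h1, j, Int.not_odd_iff_even.1 fun o => ?_, hj.symm⟩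
      have := ev hm2 (T4 _ ((zpowers η).zpow_mem c1 j) (od o) (by rw [← zpow_add]; exact ev (o.add_odd o) c4) δ h1)
      rw [hj, conj_zpow, hm, e] at this
      exact zf x (smul_left_cancel τ (by rw [← mul_smul, mK this t3, t3]))
  have mS : ∀ {g : G}, g ∈ K → g ∈ S := fun hg => ⟨1, one_mem _, fun u hu => (mK hg hu).trans (one_smul _ _).symm⟩
  have mS' : ∀ {g : G}, g ∈ zpowers a ⊓ C1[τ] → g ∈ S := fun hg => ⟨_, hg, fun _ _ => rfl⟩
  obtain ⟨δ, h1, j, h2, h3⟩ := key β hβ b1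
  obtain ⟨ε, h4, n, h5, h6⟩ := key β⁻¹ (inv_mem hβ) (by
    rw [inv_inv, mul_assoc, inv_mul_eq_iff_eq_mul, ← mul_assoc, mul_inv_eq_iff_eq_mul.1 b1, mul_assoc, mul_assoc,
      zc hβ hz, ← mul_assoc z, zz, one_mul])
  have h7 : c = ε * (β * c * β⁻¹) ^ n := by
    rw [conj_zpow, ← mul_assoc, ← mul_assoc, zc h4.1 hβ, mul_assoc β, ← h6]; group
  obtain ⟨γ, h8, h9⟩ : c ∈ S := h7 ▸ mul_mem (mS' h4) (zpow_mem (h3 ▸ mul_mem (mS' h1) (mS (ev h2 c4))) n)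
  refine c3 ((mem_fixingSubgroup_iff G).2 fun u hu => ?_)
  rw [h9 u hu, h.reg h8.1 ((h9 x t3).symm.trans (hη.le c1).1), one_smul]

end TZ

end

theorem TZ.sh {G Ω : Type u} [Group G] [Finite G] [Finite Ω] [MulAction G Ω] {a : G} (h : TZ Ω a) : Sh G Ω := by
  induction hn : Nat.card Ω using Nat.strong_induction_on generalizing G Ω with
  | _ n ih =>
    obtain ⟨z, hz, z2⟩ := h.exists_z
    obtain ⟨x⟩ := (Nat.card_pos_iff.1 (two_pos.trans h.big)).1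
    obtain ⟨τ, t2, t3, t4⟩ := h.exists_tau (h.zf hz z2 x)
    refine h.base t2 t3 (not_lt.1 fun big => h.step hz z2 t2 t3 t4 big ?_)
    obtain ⟨α, hα⟩ := exists_gen (FT.isCyclic_of_le (inferInstance : IsCyclic (zpowers a)) (inf_le_left (b := C1[τ])))
    exact ih _ (hn ▸ Finite.card_subtype_lt (not_forall.1 (mt (h.faith τ) (ne_one_of_orderOf_two t2))).choose_spec)
      (h.sub hz z2 t2 t3 t4 big (α := ⟨α, (hα.le (mem_zpowers α)).2⟩) hα) rfl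

end Cfsg.Lib.CZ
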